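import Cfsg.Agent.RuModel.Complete

/-!
# The action of the automorphism group on the short vectors and on their lines (owner: helper52)
-/

set_option autoImplicit false
set_option maxRecDepth 4000

open Cfsg.Spor Cfsg.Agent.RuLat

namespace Cfsg.Agent.RuModel

variable (f g : fourRu)

/-- The underlying map of an automorphism. -/
def app (x : ruLattice) : ruLattice := (f : Equiv.Perm ruLattice) x

theorem app_add (x y : ruLattice) : app f (x + y) = app f x + app f y := f.2.1 x y

/-- An automorphism as an additive map. -/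
def appHom : ruLattice →+ ruLattice := AddMonoidHom.mk' (app f) (app_add f)

theorem app_ruI (x : ruLattice) : app f (ruI x) = ruI (app f x) := f.2.2.1 x

theorem app_norm (x : ruLattice) :
    dot (app f x : RuVec) (app f x : RuVec) = dot (x : RuVec) (x : RuVec) := by
  rw [← ruNorm_eq, ← ruNorm_eq]; exact f.2.2.2 x

theorem app_dot (x y : ruLattice) :
    dot (app f x : RuVec) (app f y : RuVec) = dot (x : RuVec) (y : RuVec) := by
  have h := app_norm f (x + y)
  rw [app_add, AddSubgroup.coe_add, AddSubgroup.coe_add, dot_add, dot_add_left, dot_add_left, dot_add,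
    dot_add_left, dot_add_left, app_norm, app_norm, dot_comm (app f y : RuVec)] at h
  have := dot_comm (y : RuVec) (x : RuVec)
  linarith

theorem app_mul (x : ruLattice) : app (f * g) x = app f (app g x) := rfl

theorem app_one (x : ruLattice) : app 1 x = x := rfl

theorem app_gen (g : Fin 13) (x : ruLattice) : app (gen g) x = mapG g x := rfl

/-- Multiplication by `i` on the lattice vectors. -/
theorem coe_ruI_iter : ∀ (v : ℕ) (x : ruLattice),
    ((ruI^[v] x : ruLattice) : RuVec) = iMul^[v] (x : RuVec)
  | 0, _ => rfl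
  | v + 1, x => by
    rw [Function.iterate_succ_apply', Function.iterate_succ_apply', coe_ruI, coe_ruI_iter v x]

theorem app_ruI_iter : ∀ (v : ℕ) (x : ruLattice), app f (ruI^[v] x) = ruI^[v] (app f x)
  | 0, _ => rfl
  | v + 1, x => by
    rw [Function.iterate_succ_apply', Function.iterate_succ_apply', app_ruI, app_ruI_iter v x]

theorem ptL_rot (k : Fin 16240) (v : ℕ) : ptL ⟨rot k.val v, rot_lt k.isLt v⟩ = ruI^[v] (ptL k) :=
  Subtype.ext ((ptV_rot k.isLt v).trans (coe_ruI_iter v (ptL k)).symm)

theorem exists_idx (k : Fin 16240) : ∃ l : Fin 16240, app f (ptL k) = ptL l := by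
  obtain ⟨l, hl, e⟩ := complete (app f (ptL k)).2 ((app_norm f (ptL k)).trans (ptV_norm k.isLt))
  exact ⟨⟨l, hl⟩, Subtype.ext e⟩

/-- The action on the points. -/
noncomputable def act (k : Fin 16240) : Fin 16240 := (exists_idx f k).choose

theorem app_ptL (k : Fin 16240) : app f (ptL k) = ptL (act f k) := (exists_idx f k).choose_spec

theorem ptL_inj {k l : Fin 16240} (h : ptL k = ptL l) : k = l :=
  Fin.ext (ptV_inj k.isLt l.isLt (congrArg Subtype.val h))

theorem act_eq {k l : Fin 16240} (h : app f (ptL k) = ptL l) : act f k = l :=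
  ptL_inj ((app_ptL f k).symm.trans h)

noncomputable instance pointAction : MulAction fourRu (Fin 16240) where
  smul f k := act f k
  one_smul k := act_eq 1 (app_one _)
  mul_smul f g k := act_eq (f * g) (by rw [app_mul, app_ptL, app_ptL]; rfl)

theorem smul_def (k : Fin 16240) : f • k = act f k := rfl

theorem smul_eq {k l : Fin 16240} (h : app f (ptL k) = ptL l) : f • k = l := act_eq f h

theorem app_ptL' (k : Fin 16240) : app f (ptL k) = ptL (f • k) := app_ptL f k

theorem smul_rot (k : Fin 16240) (v : ℕ) :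
    f • (⟨rot k.val v, rot_lt k.isLt v⟩ : Fin 16240) = ⟨rot (f • k).val v, rot_lt (f • k).isLt v⟩ := by
  refine smul_eq f ?_
  rw [ptL_rot, app_ruI_iter, app_ptL', ← ptL_rot]

theorem gen_smul (g : Fin 9) (k : Fin 16240) :
    (gen ⟨g.val, by omega⟩ : fourRu) • k = ⟨imP g.val k.val, imP_lt g k.isLt⟩ :=
  smul_eq _ (gen_ptL g k)

/-- The line of a point. -/
def lineOf (k : Fin 16240) : Fin 4060 := ⟨k.val / 4, by omega⟩

/-- The representative of a line. -/
def repOf (i : Fin 4060) : Fin 16240 := ⟨4 * i.val, by omega⟩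

theorem lineOf_repOf (i : Fin 4060) : lineOf (repOf i) = i := Fin.ext (by simp [lineOf, repOf])

theorem eq_rot_repOf (k : Fin 16240) : k = ⟨rot (repOf (lineOf k)).val (k.val % 4), rot_lt (repOf _).isLt _⟩ :=
  Fin.ext (by simp only [rot, repOf, lineOf]; omega)

theorem lineOf_smul (k : Fin 16240) : lineOf (f • k) = lineOf (f • repOf (lineOf k)) := by
  conv_lhs => rw [eq_rot_repOf k, smul_rot]
  exact Fin.ext (by simp only [lineOf, rot]; omega)

noncomputable instance lineAction : MulAction fourRu (Fin 4060) where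
  smul f i := lineOf (f • repOf i)
  one_smul i := by
    show lineOf ((1 : fourRu) • repOf i) = i
    rw [one_smul, lineOf_repOf]
  mul_smul f g i := by
    show lineOf ((f * g) • repOf i) = lineOf (f • repOf (lineOf (g • repOf i)))
    rw [mul_smul, ← lineOf_smul]

theorem smul_line (k : Fin 16240) : f • lineOf k = lineOf (f • k) := (lineOf_smul f k).symm

/-- The permutation representation on the lines. -/
noncomputable def piHom : fourRu →* Equiv.Perm (Fin 4060) := MulAction.toPermHom fourRu (Fin 4060)

theorem piHom_apply (i : Fin 4060) : piHom f i = f • i := rfl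

/-- Multiplication by `i` as an automorphism. -/
noncomputable def iS : fourRu :=
  ⟨⟨ruI, fun x ↦ ruI^[3] x,
      fun x ↦ Subtype.ext (by
        show ((ruI^[3] (ruI x) : ruLattice) : RuVec) = _
        rw [coe_ruI_iter, coe_ruI]; exact iMul_four _),
      fun x ↦ Subtype.ext (by
        show ((ruI (ruI^[3] x) : ruLattice) : RuVec) = _
        rw [coe_ruI, coe_ruI_iter]; exact iMul_four _)⟩,
    fun x y ↦ Subtype.ext (by
      show (ruI (x + y) : RuVec) = ((ruI x : ruLattice) : RuVec) + ((ruI y : ruLattice) : RuVec)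
      rw [coe_ruI, coe_ruI, coe_ruI, AddSubgroup.coe_add]; exact iHom.map_add _ _),
    fun _ ↦ rfl,
    fun x ↦ by
      show ruNorm (ruI x : RuVec) = _
      rw [ruNorm_eq, ruNorm_eq, coe_ruI, dot_iMul]⟩

theorem app_iS (x : ruLattice) : app iS x = ruI x := rfl

theorem app_iS_pow : ∀ (v : ℕ) (x : ruLattice), app (iS ^ v) x = ruI^[v] x
  | 0, _ => rfl
  | v + 1, x => by rw [pow_succ', app_mul, app_iS, app_iS_pow v x, Function.iterate_succ_apply']

theorem iS_pow_smul (v : ℕ) (k : Fin 16240) :
    (iS ^ v) • k = (⟨rot k.val v, rot_lt k.isLt v⟩ : Fin 16240) :=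
  smul_eq _ (by rw [app_iS_pow, ptL_rot])

theorem iS_comm : iS * f = f * iS := by
  refine Subtype.ext (Equiv.ext fun x ↦ ?_)
  exact (app_ruI f x).symm

theorem piHom_iS (v : ℕ) : piHom (iS ^ v) = 1 := by
  refine Equiv.ext fun i ↦ ?_
  show lineOf ((iS ^ v) • repOf i) = i
  rw [iS_pow_smul]
  exact Fin.ext (by simp only [lineOf, rot, repOf]; omega)

end Cfsg.Agent.RuModel
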