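import Cfsg.Agent.RuModel.GrpFun

/-! The singles span the lattice up to a factor four (owner: helper52). -/

set_option autoImplicit false
set_option maxRecDepth 4000

open Cfsg.Agent.CosetCert

namespace Cfsg.Agent.RuModel

/-- The point of one vector of the second basis. -/
noncomputable def sglPt (t : ℕ) : ℕ :=
  rotN (l2 (Dat.singW.getD t (0, 0)).1) (Dat.singW.getD t (0, 0)).2

theorem singW_ok : ∀ t : Fin 56, Dat.singM.contains (Dat.singW.getD t.val (0, 0)).1 = true ∧
    (Dat.singW.getD t.val (0, 0)).1 < 2304 ∧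
    Nat.beq (Nat.mod (Dat.singP.getD t.val 0) (NN 28)) (Nat.mod (packN 28 (codeK (sglPt t.val))) (NN 28)) = true := by
  decide +kernel

theorem singP_length : Dat.singP.length = 56 := by decide +kernel

theorem combS_ok : ∀ t : Fin 56, Nat.beq (Nat.mod (combN Dat.singP (Dat.combS.getD t.val 0)) (NN 28))
    (Nat.mod (Nat.add (Nat.mul 4 (packN 28 (bas t.val))) (Nat.mul 65536 (sumP Dat.singP))) (NN 28)) = true := by
  decide +kernel

end Cfsg.Agent.RuModel
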