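import Cfsg.Agent.RuModel.Pts
import Cfsg.Agent.RuModel.Points2
import Cfsg.Agent.RuModel.GenChk
import Cfsg.Agent.RuModel.Grp

/-!
# The finite checks behind the order and the simplicity of the group (owner: helper52)
-/

set_option autoImplicit false
set_option maxRecDepth 4000

open Cfsg.Agent.CosetCert

namespace Cfsg.Agent.RuModel

/-- A rotated point. -/
noncomputable def rotN (k v : ℕ) : ℕ := Nat.add (Nat.mul 4 (Nat.div k 4)) (Nat.mod (Nat.add k v) 4)

/-- The hermitian product of two points, as one number. -/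
noncomputable def sigc (x y : ℕ) : ℕ :=
  Nat.add (Nat.mul (dN (codeK x) (codeK y)) 8192) (dN (codeK (rotN x 1)) (codeK y))

/-- The points with product four with the first base point. -/
noncomputable def l2 (m : ℕ) : ℕ := Dat.l2T.get 16 m

/-- Their positions. -/
noncomputable def pos2 (k : ℕ) : ℕ := Dat.l2P.get 16 k

/-- The generators on positions. -/
noncomputable def stepT (g m : ℕ) : ℕ := cond (Nat.beq g 0) (Dat.paT.get 16 m) (Dat.pbT.get 16 m)

/-- The two generators of the stabiliser on positions. -/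
noncomputable def stepH (g m : ℕ) : ℕ := cond (Nat.beq g 0) (Dat.ph1T.get 16 m) (Dat.ph2T.get 16 m)

/-- Follow a word, first letter first. -/
noncomputable def runW (s : ℕ → ℕ → ℕ) (w : List ℕ) : ℕ → ℕ :=
  List.rec (motive := fun _ => ℕ → ℕ) (fun x ↦ x) (fun g _ ih x ↦ ih (s g x)) w

/-- The depth of a tree node. -/
noncomputable def tDep (t : PTree) (i : ℕ) : ℕ := Nat.div (Nat.div (Nat.div (t.get 40 i) 8) 8) 4096

/-- The parent of a tree node. -/
noncomputable def tPar (t : PTree) (i : ℕ) : ℕ := Nat.mod (Nat.div (Nat.div (t.get 40 i) 8) 8) 4096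

/-- The letter of a tree node. -/
noncomputable def tGen (t : PTree) (i : ℕ) : ℕ := Nat.mod (Nat.div (t.get 40 i) 8) 8

/-- The class of a tree node. -/
noncomputable def tCls (t : PTree) (i : ℕ) : ℕ := Nat.mod (t.get 40 i) 8

/-- A node of a forest. -/
noncomputable def nodeOK (t : PTree) (roots : List ℕ) (s : ℕ → ℕ → ℕ) (n i : ℕ) : Bool :=
  (Nat.beq (tDep t i) 0 && (Nat.blt (tCls t i) roots.length && Nat.beq (roots.getD (tCls t i) n) i)) ||
    (Nat.blt (tPar t i) n && (Nat.blt (tGen t i) 2 && (Nat.blt (tDep t (tPar t i)) (tDep t i) &&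
      (Nat.beq (tCls t (tPar t i)) (tCls t i) && Nat.beq (s (tGen t i) (tPar t i)) i))))

/-- The size of a class. -/
noncomputable def clsSize (t : PTree) (n c : ℕ) : ℕ :=
  Nat.rec (motive := fun _ => ℕ) 0 (fun i ih ↦ cond (Nat.beq (tCls t i) c) (Nat.add ih 1) ih) n

/-- The generators on lines. -/
noncomputable def stepLine (g i : ℕ) : ℕ := Nat.div (imK (Nat.add 7 g) i) 4

/-- The edges of a loop, modulo two. -/
noncomputable def edgeAcc (w : List ℕ) : ℕ → ℕ → ℕ :=
  List.rec (motive := fun _ => ℕ → ℕ → ℕ) (fun _ acc ↦ acc)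
    (fun g _ ih x acc ↦ ih (stepT g x) (Nat.xor acc (Nat.shiftLeft 1 (Nat.add (Nat.mul 2 x) g)))) w

/-- One step of the propagation. -/
noncomputable def learn (known i : ℕ) : ℕ :=
  let e := Dat.certT.get 32 i
  let acc := edgeAcc (Dat.rels.getD (Nat.mod e 8) []) (Nat.mod (Nat.div e 8) 4096) 0
  cond (Nat.blt (Nat.mod e 8) 6 && (Nat.blt (Nat.mod (Nat.div e 8) 4096) 2304 &&
      Nat.beq (Nat.xor acc (Nat.land acc known)) (Nat.shiftLeft 1 (Nat.div e 32768))))
    (Nat.lor known (Nat.shiftLeft 1 (Nat.div e 32768))) known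

/-- The edges of the tree. -/
noncomputable def treeKnown (n : ℕ) : ℕ :=
  Nat.rec (motive := fun _ => ℕ) 0
    (fun m ih ↦ cond (Nat.beq (tDep Dat.treeTwo m) 0) ih
      (Nat.lor ih (Nat.shiftLeft 1 (Nat.add (Nat.mul 2 (tPar Dat.treeTwo m)) (tGen Dat.treeTwo m))))) n

/-- Everything learnt. -/
noncomputable def learntUpTo (n : ℕ) : ℕ :=
  Nat.rec (motive := fun _ => ℕ) (treeKnown 2304) (fun i ih ↦ learn ih i) n

/-- The image of a point under a map given by a few pairs. -/
noncomputable def stepP (g k : ℕ) : ℕ :=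
  List.rec (motive := fun _ => ℕ) 16240
    (fun e _ ih ↦ cond (Nat.beq e.1 g && Nat.beq e.2.1 k) e.2.2 ih) Dat.pairsG

/-- One listed pair is correct. -/
noncomputable def pairOK (e : ℕ × ℕ × ℕ) : Bool :=
  Nat.blt e.1 13 && (Nat.blt e.2.1 16240 && (Nat.blt e.2.2 16240 &&
    chkIm (tabG e.1) Dat.tab13 (codeK e.2.1) (codeK e.2.2)))

/-- The product of swaps at a position. -/
noncomputable def swapsAt (l : List (ℕ × ℕ)) (x : ℕ) : ℕ :=
  List.rec (motive := fun _ => ℕ) x
    (fun s _ ih ↦ cond (Nat.beq ih s.1) s.2 (cond (Nat.beq ih s.2) s.1 ih)) l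

/-- The products with the base points, as one number. -/
noncomputable def sigAll (m : ℕ) : ℕ :=
  Nat.add (sigc Dat.base2 (l2 m))
    (Nat.mul 134217728 (Nat.add (sigc Dat.base3 (l2 m))
      (Nat.mul 134217728 (Nat.add (sigc Dat.base4 (l2 m))
        (Nat.mul 134217728 (sigc Dat.base5 (l2 m)))))))

/-- A position with the products of a single is that single. -/
noncomputable def singleOK (ms ss : List ℕ) (v m : ℕ) : Bool :=
  List.rec (motive := fun _ => List ℕ → Bool) (fun _ ↦ true)
    (fun s _ ih sg ↦ List.rec (motive := fun _ => Bool) true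
      (fun a rest _ ↦ (!Nat.beq v a || Nat.beq m s) && ih rest) sg) ms ss

/-- A candidate for a base point differs from it as seen from the long suborbit. -/
noncomputable def sepL3 (b y : ℕ) : Bool :=
  Nat.beq (l2 y) b || !allB (fun j ↦ Nat.ble 300 j ||
    Nat.beq (sigc (l2 (Dat.l3T.get 16 j)) (l2 y)) (sigc (l2 (Dat.l3T.get 16 j)) b)) 9 0

end Cfsg.Agent.RuModel
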