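import Cfsg.Agent.RuModel.Act
import Cfsg.Agent.RuModel.GrpChkA
import Cfsg.Agent.RuModel.GrpChkD

/-!
# Five points with trivial stabiliser, and the bounds along them (owner: helper52)
-/

set_option autoImplicit false
set_option maxRecDepth 4000

open Cfsg.Spor Cfsg.Agent.RuLat Cfsg.Agent.CosetCert MulAction
open scoped BigOperators

namespace Cfsg.Agent.RuModel

theorem rotN_eq (k v : ℕ) : rotN k v = rot k v := rfl

theorem sigc_eq_iff {x y x' y' : Fin 16240} (h1 : dot (ptV x.val) (ptV y.val) = dot (ptV x'.val) (ptV y'.val))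
    (h2 : dot (ptV (rot x.val 1)) (ptV y.val) = dot (ptV (rot x'.val 1)) (ptV y'.val)) :
    sigc x.val y.val = sigc x'.val y'.val := by
  have key : ∀ a b c d : ℕ, dot (ptV a) (ptV b) = dot (ptV c) (ptV d) →
      dN (codeK a) (codeK b) = dN (codeK c) (codeK d) := fun a b c d h ↦ by
    simp only [ptV, dot_vec] at h
    have h1 := dN_eq (codeK a) (codeK b)
    have h2 := dN_eq (codeK c) (codeK d)
    omega
  show dN (codeK x.val) (codeK y.val) * 8192 + dN (codeK (rot x.val 1)) (codeK y.val) =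
    dN (codeK x'.val) (codeK y'.val) * 8192 + dN (codeK (rot x'.val 1)) (codeK y'.val)
  rw [key _ _ _ _ h1, key _ _ _ _ h2]

/-- **The products are invariant.** -/
theorem sigc_smul (f : fourRu) (x y : Fin 16240) : sigc (f • x).val (f • y).val = sigc x.val y.val := by
  have d : ∀ a b : Fin 16240, dot (ptV (f • a).val) (ptV (f • b).val) = dot (ptV a.val) (ptV b.val) := by
    intro a b
    have h := app_dot f (ptL a) (ptL b)
    rw [app_ptL', app_ptL'] at h
    exact h
  refine sigc_eq_iff (d x y) ?_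
  have h := d ⟨rot x.val 1, rot_lt x.isLt 1⟩ y
  rw [smul_rot] at h
  exact h

/-- The base points. -/
def B1 : Fin 16240 := ⟨Dat.base1, base_lt.1⟩

/-- Second base point. -/
def B2 : Fin 16240 := ⟨Dat.base2, base_lt.2.1⟩

/-- Third base point. -/
def B3 : Fin 16240 := ⟨Dat.base3, base_lt.2.2.1⟩

/-- Fourth base point. -/
def B4 : Fin 16240 := ⟨Dat.base4, base_lt.2.2.2.1⟩

/-- Fifth base point. -/
def B5 : Fin 16240 := ⟨Dat.base5, base_lt.2.2.2.2⟩

theorem level2_spec {k : Fin 16240} (h : sigc Dat.base1 k.val = sigc Dat.base1 Dat.base2) :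
    pos2 k.val < 2304 ∧ l2 (pos2 k.val) = k.val := by
  have := allB_spec_zero level2_ok (show 16240 ≤ 2 ^ 14 by norm_num) k.isLt
  simp only [level2B, Bool.or_eq_true, Bool.and_eq_true, Bool.not_eq_true'] at this
  rcases this with h' | h' | ⟨h1, h2⟩
  · exact absurd (Nat.le_of_ble_eq_true h') (by omega)
  · rw [h, show Nat.beq _ _ = true from Nat.beq_refl _] at h'; exact Bool.noConfusion h'
  · exact ⟨Nat.le_of_ble_eq_true h1, Nat.eq_of_beq_eq_true h2⟩

theorem l2_spec {m : ℕ} (hm : m < 2304) :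
    l2 m < 16240 ∧ pos2 (l2 m) = m ∧ sigc Dat.base1 (l2 m) = sigc Dat.base1 Dat.base2 := by
  have := allB_spec_zero l2_ok (show 2304 ≤ 2 ^ 12 by norm_num) hm
  simp only [Bool.or_eq_true, Bool.and_eq_true] at this
  rcases this with h | ⟨h1, h2, h3⟩
  · exact absurd (Nat.le_of_ble_eq_true h) (by omega)
  · exact ⟨Nat.le_of_ble_eq_true h1, Nat.eq_of_beq_eq_true h2, Nat.eq_of_beq_eq_true h3⟩

/-- The point at a position. -/
noncomputable def L2 (m : Fin 2304) : Fin 16240 := ⟨l2 m.val, (l2_spec m.isLt).1⟩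

theorem L2_inj : Function.Injective L2 := fun a b h ↦ Fin.ext (by
  rw [← (l2_spec a.isLt).2.1, ← (l2_spec b.isLt).2.1, show l2 a.val = l2 b.val from congrArg Fin.val h])

theorem exists_L2 {k : Fin 16240} (h : sigc Dat.base1 k.val = sigc Dat.base1 Dat.base2) :
    ∃ m : Fin 2304, L2 m = k :=
  ⟨⟨pos2 k.val, (level2_spec h).1⟩, Fin.ext (level2_spec h).2⟩

theorem fix_sigc {f : fourRu} {b : Fin 16240} (hb : f • b = b) (y : Fin 16240) :
    sigc b.val (f • y).val = sigc b.val y.val := by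
  have := sigc_smul f b y
  rwa [hb] at this

theorem sigAll_eq {f : fourRu} (h2 : f • B2 = B2) (h3 : f • B3 = B3) (h4 : f • B4 = B4) (h5 : f • B5 = B5)
    {m m' : Fin 2304} (h : f • L2 m = L2 m') : sigAll m'.val = sigAll m.val := by
  have e : ∀ b : Fin 16240, f • b = b → sigc b.val (l2 m'.val) = sigc b.val (l2 m.val) := fun b hb ↦ by
    have := fix_sigc hb (L2 m)
    rw [h] at this
    exact this
  have e2 := e B2 h2
  have e3 := e B3 h3
  have e4 := e B4 h4
  have e5 := e B5 h5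
  simp only [B2, B3, B4, B5] at e2 e3 e4 e5
  simp only [sigAll, e2, e3, e4, e5]

theorem singleOK_spec : ∀ (ms ss : List ℕ) (v m : ℕ), singleOK ms ss v m = true →
    ∀ i < ms.length, i < ss.length → v = ss.getD i 0 → m = ms.getD i 0
  | [], _, _, _, _, i, hi, _, _ => absurd hi (Nat.not_lt_zero i)
  | s :: ms, [], _, _, _, i, _, hi, _ => absurd hi (Nat.not_lt_zero i)
  | s :: ms, a :: ss, v, m, h, i, hi, hi', hv => by
    change ((!Nat.beq v a || Nat.beq m s) && singleOK ms ss v m) = true at h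
    simp only [Bool.and_eq_true, Bool.or_eq_true, Bool.not_eq_true'] at h
    rcases i with _ | i
    · simp only [List.getD_cons_zero] at hv ⊢
      rcases h.1 with h' | h'
      · rw [hv, show Nat.beq a a = true from Nat.beq_refl a] at h'; exact Bool.noConfusion h'
      · exact Nat.eq_of_beq_eq_true h'
    · simp only [List.getD_cons_succ, List.length_cons] at hv hi hi' ⊢
      exact singleOK_spec ms ss v m h.2 i (by omega) (by omega) hv

theorem single_fixed {f : fourRu} (h1 : f • B1 = B1) (h2 : f • B2 = B2) (h3 : f • B3 = B3)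
    (h4 : f • B4 = B4) (h5 : f • B5 = B5) {s : ℕ} (hs : s ∈ Dat.singM) (hs' : s < 2304) :
    f • L2 ⟨s, hs'⟩ = L2 ⟨s, hs'⟩ := by
  have hsg : sigc Dat.base1 (f • L2 ⟨s, hs'⟩).val = sigc Dat.base1 Dat.base2 := by
    have := fix_sigc h1 (L2 ⟨s, hs'⟩)
    exact this.trans (l2_spec hs').2.2
  obtain ⟨m, hm⟩ := exists_L2 hsg
  obtain ⟨i, hi, hsi⟩ := List.mem_iff_getElem.1 hs
  obtain ⟨l1, l2', hall⟩ := singSig_ok
  have hi37 : i < 37 := l1 ▸ hi
  have hget : Dat.singM.getD i 0 = s := by rw [List.getD_eq_getElem _ _ hi, hsi]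
  have hv := Nat.eq_of_beq_eq_true (hall ⟨i, hi37⟩).1
  simp only [hget] at hv
  have := allB_spec_zero singles_ok (show 2304 ≤ 2 ^ 12 by norm_num) m.isLt
  rw [Bool.or_eq_true] at this
  rcases this with h | h
  · exact absurd (Nat.le_of_ble_eq_true h) (by omega)
  have hms := singleOK_spec _ _ _ _ h i hi (by omega) ((sigAll_eq h2 h3 h4 h5 hm.symm).trans hv)
  rw [← hm]
  exact congrArg L2 (Fin.ext (hms.trans hget))

/-- The combination of the second basis. -/
noncomputable def combT (C : ℕ) : ruLattice :=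
  ∑ t : Fin 56, ((raw C t.val : ℤ) - 65536) • ptL ⟨sglPt t.val % 16240, Nat.mod_lt _ (by norm_num)⟩

theorem sglPt_lt (t : Fin 56) : sglPt t.val < 16240 :=
  rot_lt (l2_spec (singW_ok t).2.1).1 _

theorem combT_eq (t : Fin 56) :
    (combT (Dat.combS.getD t.val 0) : RuVec) = (4 : ℤ) • vec (bas t.val) := by
  have hcoe : ∀ C, (combT C : RuVec) =
      ∑ u ∈ Finset.range 56, ((raw C u : ℤ) - 65536) • vec (codeK (sglPt u)) := by
    intro C
    rw [combT, AddSubgroup.val_finsetSum, Finset.sum_range]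
    refine Finset.sum_congr rfl fun u _ ↦ ?_
    rw [AddSubgroup.coe_zsmul]
    show _ • ptV (sglPt u.val % 16240) = _
    rw [Nat.mod_eq_of_lt (sglPt_lt u)]
    rfl
  rw [hcoe]
  refine packV_inj (k := 28) (fun r hr ↦ ?_) ?_
  · refine lt_of_le_of_lt ((abs_sub _ _).trans (add_le_add (a := |co _ r|) (b := 56 * (65536 * 4))
      (c := |co _ r|) (d := 16) ?_ ?_)) (by norm_num [BS])
    · show |coHom r _| ≤ _
      rw [map_sum]
      refine (Finset.abs_sum_le_sum_abs _ _).trans ?_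
      refine (Finset.sum_le_card_nsmul _ _ (65536 * 4 : ℤ) fun i _ ↦ ?_).trans (by simp)
      rw [map_zsmul, smul_eq_mul, abs_mul]
      refine mul_le_mul ?_ (abs_co_vec _ _ hr) (abs_nonneg _) (by norm_num)
      have := Nat.mod_lt (Dat.combS.getD t.val 0 / 131072 ^ i) (show 131072 > 0 by norm_num)
      unfold raw
      rw [abs_le]
      omega
    · rw [co_zsmul, abs_mul, show |(4 : ℤ)| = 4 from rfl]
      exact (mul_le_mul_of_nonneg_left (abs_co_vec _ r hr) (by norm_num)).trans (by norm_num)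
  · have hp : ∀ i, i ∈ Finset.range 56 →
        ((Dat.singP.getD i 0 : ℕ) : ZMod (NN 28)) = packV 28 (vec (codeK (sglPt i))) := fun i hi ↦ by
      rw [← packN_spec (by norm_num)]
      exact cast_of_mod (singW_ok ⟨i, Finset.mem_range.1 hi⟩).2.2
    have hm := cast_of_mod (combS_ok t)
    simp only [Nat.add_eq, Nat.mul_eq, Nat.cast_add, Nat.cast_mul, combN_spec, sumP_spec, singP_length,
      Nat.cast_sum, Nat.cast_ofNat, packN_spec (show 3 ≤ 28 by norm_num)] at hm
    rw [map_sum, map_zsmul]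
    have e : ∀ i ∈ Finset.range 56,
        packV 28 (((raw (Dat.combS.getD t.val 0) i : ℤ) - 65536) • vec (codeK (sglPt i))) =
        (raw (Dat.combS.getD t.val 0) i : ZMod (NN 28)) * (Dat.singP.getD i 0 : ℕ) -
          65536 * (Dat.singP.getD i 0 : ℕ) := by
      intro i hi
      rw [map_zsmul, zsmul_eq_mul, hp i hi]
      push_cast
      ring
    rw [Finset.sum_congr rfl e, Finset.sum_sub_distrib, hm, ← Finset.mul_sum, zsmul_eq_mul]
    push_cast
    ring

/-- **An element fixing the base is the identity.** -/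
theorem eq_one_of_fix {f : fourRu} (h1 : f • B1 = B1) (h2 : f • B2 = B2) (h3 : f • B3 = B3)
    (h4 : f • B4 = B4) (h5 : f • B5 = B5) : f = 1 := by
  have hpt : ∀ t : Fin 56, app f (ptL ⟨sglPt t.val % 16240, Nat.mod_lt _ (by norm_num)⟩) =
      ptL ⟨sglPt t.val % 16240, Nat.mod_lt _ (by norm_num)⟩ := by
    intro t
    obtain ⟨hmem, hlt, -⟩ := singW_ok t
    have hfix := single_fixed h1 h2 h3 h4 h5 (List.contains_iff_mem.1 hmem) hlt
    rw [app_ptL']
    congr 1
    have : (⟨sglPt t.val % 16240, Nat.mod_lt _ (by norm_num)⟩ : Fin 16240) =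
        ⟨rot (L2 ⟨_, hlt⟩).val (Dat.singW.getD t.val (0, 0)).2, rot_lt (L2 _).isLt _⟩ :=
      Fin.ext (Nat.mod_eq_of_lt (sglPt_lt t))
    rw [this, smul_rot]
    exact Fin.ext (by rw [hfix])
  have hcomb : ∀ C, app f (combT C) = combT C := fun C ↦ by
    show appHom f (combT C) = _
    rw [combT, map_sum]
    refine Finset.sum_congr rfl fun t _ ↦ ?_
    rw [map_zsmul]
    exact congrArg _ (hpt t)
  have hall : ∀ v, v ∈ ruLattice → ∃ h : v ∈ ruLattice, app f ⟨v, h⟩ = ⟨v, h⟩ := by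
    intro v hv
    refine lattice_induct (P := fun v ↦ ∃ h : v ∈ ruLattice, app f ⟨v, h⟩ = ⟨v, h⟩) ?_ ?_ ?_ ?_ hv
    · intro t ht
      refine ⟨bas_mem ht, Subtype.ext (zsmul_inj (k := 4) (by norm_num) ?_)⟩
      have e : combT (Dat.combS.getD t 0) = (4 : ℤ) • (⟨vec (bas t), bas_mem ht⟩ : ruLattice) :=
        Subtype.ext (combT_eq ⟨t, ht⟩)
      have h := hcomb (Dat.combS.getD t 0)
      rw [e] at h
      rw [show app f ((4 : ℤ) • (⟨vec (bas t), bas_mem ht⟩ : ruLattice)) =
        (4 : ℤ) • app f ⟨vec (bas t), bas_mem ht⟩ from map_zsmul (appHom f) _ _] at h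
      exact congrArg Subtype.val h
    · exact ⟨zero_mem _, map_zero (appHom f)⟩
    · rintro x y ⟨hx, ex⟩ ⟨hy, ey⟩
      refine ⟨add_mem hx hy, ?_⟩
      show app f (⟨x, hx⟩ + ⟨y, hy⟩) = ⟨x, hx⟩ + ⟨y, hy⟩
      rw [app_add, ex, ey]
    · rintro x ⟨hx, ex⟩
      refine ⟨neg_mem hx, ?_⟩
      show appHom f (-⟨x, hx⟩) = -(⟨x, hx⟩ : ruLattice)
      rw [map_neg]
      exact congrArg _ ex
  refine Subtype.ext (Equiv.ext fun x ↦ ?_)
  obtain ⟨_, h⟩ := hall x.1 x.2
  exact h

end Cfsg.Agent.RuModel
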