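import Cfsg.Agent.RuModel.Levels
import Cfsg.Agent.SporOut.RuLower

/-!
# The order of the automorphism group (owner: helper52)
-/

set_option autoImplicit false
set_option maxRecDepth 4000

open Cfsg.Spor Cfsg.Agent.CosetCert MulAction

namespace Cfsg.Agent.RuModel

theorem card_step {G X : Type*} [Group G] [MulAction G X] (H : Subgroup G) (x : X) :
    Nat.card H = (orbit H x).ncard * Nat.card (H ⊓ stabilizer G x : Subgroup G) := by
  have h := (stabilizer H x).card_mul_index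
  rw [index_stabilizer, mul_comm] at h
  rw [← h]
  congr 1
  exact Nat.card_congr
    { toFun := fun s ↦ ⟨s.1.1, ⟨s.1.2, s.2⟩⟩
      invFun := fun s ↦ ⟨⟨s.1, s.2.1⟩, s.2.2⟩
      left_inv := fun s ↦ rfl
      right_inv := fun s ↦ rfl }

theorem card_step_le {G X : Type*} [Group G] [MulAction G X] (H : Subgroup G) (x : X) {n : ℕ}
    (t : Fin n → X) (h : ∀ g ∈ H, ∃ i, t i = g • x) :
    Nat.card H ≤ n * Nat.card (H ⊓ stabilizer G x : Subgroup G) := by
  rw [card_step H x]
  refine Nat.mul_le_mul_right _ ?_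
  refine le_trans (Set.ncard_le_ncard (t := Set.range t) ?_ (Set.finite_range t)) ?_
  · rintro _ ⟨⟨g, hg⟩, rfl⟩
    exact h g hg
  · rw [← Set.image_univ]
    exact le_trans (Set.ncard_image_le Set.finite_univ) (by rw [Set.ncard_univ, Nat.card_fin])

/-- The stabiliser of the first base point. -/
noncomputable def S1 : Subgroup fourRu := stabilizer fourRu B1

/-- The stabiliser of two base points. -/
noncomputable def S2 : Subgroup fourRu := S1 ⊓ stabilizer fourRu B2

/-- The stabiliser of three base points. -/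
noncomputable def S3 : Subgroup fourRu := S2 ⊓ stabilizer fourRu B3

/-- The stabiliser of four base points. -/
noncomputable def S4 : Subgroup fourRu := S3 ⊓ stabilizer fourRu B4

theorem S5_bot : S4 ⊓ stabilizer fourRu B5 = ⊥ := by
  rw [Subgroup.eq_bot_iff_forall]
  rintro f ⟨⟨⟨⟨h1, h2⟩, h3⟩, h4⟩, h5⟩
  exact eq_one_of_fix h1 h2 h3 h4 h5

theorem card_fourRu_le : Nat.card fourRu ≤ 16240 * Nat.card S1 := by
  have h := card_step_le (⊤ : Subgroup fourRu) B1 (n := 16240) id (fun g _ ↦ ⟨g • B1, rfl⟩)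
  rw [Subgroup.card_top, top_inf_eq] at h
  exact h

theorem image_L2 {f : fourRu} (hf : f ∈ S1) {y : Fin 16240}
    (hy : sigc Dat.base1 y.val = sigc Dat.base1 Dat.base2) : ∃ m, L2 m = f • y :=
  exists_L2 ((fix_sigc (show f • B1 = B1 from hf) y).trans hy)

theorem card_S1_le : Nat.card S1 ≤ 2304 * Nat.card S2 :=
  card_step_le S1 B2 L2 fun _ hg ↦ image_L2 hg rfl

/-- The long suborbit, by positions. -/
noncomputable def l3 (j : Fin 300) : Fin 2304 :=
  ⟨Dat.l3T.get 16 j.val % 2304, Nat.mod_lt _ (by norm_num)⟩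

theorem pb_L2 : L2 ⟨Dat.pb2, base_pos.2.2.2.2.2.2.2.2.1⟩ = B2 ∧
    L2 ⟨Dat.pb3, base_pos.2.2.2.2.2.2.2.2.2.1⟩ = B3 ∧
    L2 ⟨Dat.pb4, base_pos.2.2.2.2.2.2.2.2.2.2.1⟩ = B4 ∧
    L2 ⟨Dat.pb5, base_pos.2.2.2.2.2.2.2.2.2.2.2⟩ = B5 :=
  ⟨Fin.ext base_pos.2.2.2.2.1, Fin.ext base_pos.2.2.2.2.2.1, Fin.ext base_pos.2.2.2.2.2.2.1,
    Fin.ext base_pos.2.2.2.2.2.2.2.1⟩

theorem sig1_base : sigc Dat.base1 B3.val = sigc Dat.base1 Dat.base2 ∧
    sigc Dat.base1 B4.val = sigc Dat.base1 Dat.base2 ∧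
    sigc Dat.base1 B5.val = sigc Dat.base1 Dat.base2 := by
  obtain ⟨-, -, -, -, -, h3, h4, h5, -, p3, p4, p5⟩ := base_pos
  refine ⟨?_, ?_, ?_⟩
  · show sigc _ Dat.base3 = _; rw [← h3]; exact (l2_spec p3).2.2
  · show sigc _ Dat.base4 = _; rw [← h4]; exact (l2_spec p4).2.2
  · show sigc _ Dat.base5 = _; rw [← h5]; exact (l2_spec p5).2.2

theorem level3_spec {m : Fin 2304} (h : sigc Dat.base2 (l2 m.val) = sigc Dat.base2 Dat.base3) :
    ∃ j : Fin 300, l3 j = m := by
  have := allB_spec_zero level3_ok (show 2304 ≤ 2 ^ 12 by norm_num) m.isLt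
  simp only [Bool.or_eq_true, Bool.and_eq_true, Bool.not_eq_true'] at this
  rcases this with h' | h' | ⟨h1, h2⟩
  · exact absurd (Nat.le_of_ble_eq_true h') (by omega)
  · rw [h, show Nat.beq _ _ = true from Nat.beq_refl _] at h'; exact Bool.noConfusion h'
  · exact ⟨⟨_, Nat.le_of_ble_eq_true h1⟩, Fin.ext (by
      show Dat.l3T.get 16 _ % 2304 = m.val
      rw [Nat.eq_of_beq_eq_true h2, Nat.mod_eq_of_lt m.isLt])⟩

theorem card_S2_le : Nat.card S2 ≤ 300 * Nat.card S3 := by
  refine card_step_le S2 B3 (fun j ↦ L2 (l3 j)) fun g hg ↦ ?_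
  obtain ⟨m, hm⟩ := image_L2 hg.1 sig1_base.1
  have h := fix_sigc (show g • B2 = B2 from hg.2) B3
  rw [← hm] at h
  obtain ⟨j, rfl⟩ := level3_spec h
  exact ⟨j, hm⟩

theorem card_S3_le : Nat.card S3 ≤ 26 * Nat.card S4 := by
  refine card_step_le S3 B4
    (fun j : Fin 26 ↦ L2 ⟨Dat.l4L.getD j.val 0 % 2304, Nat.mod_lt _ (by norm_num)⟩) fun g hg ↦ ?_
  obtain ⟨m, hm⟩ := image_L2 hg.1.1 sig1_base.2.1
  have h2 := fix_sigc (show g • B2 = B2 from hg.1.2) B4
  have h3 := fix_sigc (show g • B3 = B3 from hg.2) B4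
  rw [← hm] at h2 h3
  change sigc Dat.base2 (l2 m.val) = sigc Dat.base2 Dat.base4 at h2
  change sigc Dat.base3 (l2 m.val) = sigc Dat.base3 Dat.base4 at h3
  have := allB_spec_zero level4_ok (show 2304 ≤ 2 ^ 12 by norm_num) m.isLt
  simp only [Bool.or_eq_true, Bool.not_eq_true', Bool.and_eq_false_iff, List.any_eq_true] at this
  rcases this with h | (h | h) | ⟨y, hy, hym⟩
  · exact absurd (Nat.le_of_ble_eq_true h) (by omega)
  · rw [show Nat.beq _ _ = true from (congrArg (Nat.beq · _) h2).trans (Nat.beq_refl _)] at h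
    exact Bool.noConfusion h
  · rw [show Nat.beq _ _ = true from (congrArg (Nat.beq · _) h3).trans (Nat.beq_refl _)] at h
    exact Bool.noConfusion h
  · obtain ⟨i, hi, rfl⟩ := List.mem_iff_getElem.1 hy
    refine ⟨⟨i, small_levels.1 ▸ hi⟩, ?_⟩
    rw [← hm]
    refine congrArg L2 (Fin.ext ?_)
    show Dat.l4L.getD i 0 % 2304 = _
    rw [List.getD_eq_getElem _ _ hi, Nat.eq_of_beq_eq_true hym, Nat.mod_eq_of_lt m.isLt]

theorem card_S4_le : Nat.card S4 ≤ 2 := by
  refine le_trans (card_step_le S4 B5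
    (fun j : Fin 2 ↦ L2 ⟨Dat.l5L.getD j.val 0 % 2304, Nat.mod_lt _ (by norm_num)⟩) fun g hg ↦ ?_) ?_
  · obtain ⟨m, hm⟩ := image_L2 hg.1.1.1 sig1_base.2.2
    have h2 := fix_sigc (show g • B2 = B2 from hg.1.1.2) B5
    have h3 := fix_sigc (show g • B3 = B3 from hg.1.2) B5
    have h4 := fix_sigc (show g • B4 = B4 from hg.2) B5
    rw [← hm] at h2 h3 h4
    change sigc Dat.base2 (l2 m.val) = sigc Dat.base2 Dat.base5 at h2
    change sigc Dat.base3 (l2 m.val) = sigc Dat.base3 Dat.base5 at h3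
    change sigc Dat.base4 (l2 m.val) = sigc Dat.base4 Dat.base5 at h4
    have := allB_spec_zero level5_ok (show 2304 ≤ 2 ^ 12 by norm_num) m.isLt
    simp only [Bool.or_eq_true, Bool.not_eq_true', Bool.and_eq_false_iff, List.any_eq_true] at this
    rcases this with h | (h | h | h) | ⟨y, hy, hym⟩
    · exact absurd (Nat.le_of_ble_eq_true h) (by omega)
    · rw [show Nat.beq _ _ = true from (congrArg (Nat.beq · _) h2).trans (Nat.beq_refl _)] at h
      exact Bool.noConfusion h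
    · rw [show Nat.beq _ _ = true from (congrArg (Nat.beq · _) h3).trans (Nat.beq_refl _)] at h
      exact Bool.noConfusion h
    · rw [show Nat.beq _ _ = true from (congrArg (Nat.beq · _) h4).trans (Nat.beq_refl _)] at h
      exact Bool.noConfusion h
    · obtain ⟨i, hi, rfl⟩ := List.mem_iff_getElem.1 hy
      refine ⟨⟨i, small_levels.2.1 ▸ hi⟩, ?_⟩
      rw [← hm]
      refine congrArg L2 (Fin.ext ?_)
      show Dat.l5L.getD i 0 % 2304 = _
      rw [List.getD_eq_getElem _ _ hi, Nat.eq_of_beq_eq_true hym, Nat.mod_eq_of_lt m.isLt]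
  · rw [S5_bot, Subgroup.card_bot]

/-- The line tables of the first seven maps are helper76's letters. -/
theorem letters_ok : ∀ l : Fin 7, allB (fun i ↦ Nat.ble 4060 i ||
    Nat.beq (Nat.div (imK l.val i) 4) (SporOut.Ru.look (l.val + 1) i)) 12 0 = true := by
  decide +kernel

theorem piHom_gen (l : Fin 7) :
    piHom (gen ⟨l.val, by omega⟩) = SporOut.Ru.sig (l.val + 1) := by
  refine Equiv.ext fun i ↦ Fin.ext ?_
  rw [SporOut.Ru.sig_apply (by omega) (by omega)]
  show (lineOf ((gen ⟨(⟨l.val, by omega⟩ : Fin 9).val, by omega⟩ : fourRu) • repOf i)).val = _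
  rw [gen_smul]
  show imP l.val (4 * i.val) / 4 = _
  rw [imP_eq, show 4 * i.val / 4 = i.val by omega, show 4 * i.val % 4 = 0 by omega]
  have := allB_spec_zero (letters_ok l) (show 4060 ≤ 2 ^ 12 by norm_num) i.isLt
  simp only [Bool.or_eq_true] at this
  rcases this with h | h
  · exact absurd (Nat.le_of_ble_eq_true h) (by omega)
  · rw [← show imK l.val i.val / 4 = _ from Nat.eq_of_beq_eq_true h]
    unfold rot; omega

theorem K_le_range : SporOut.Ru.K ≤ piHom.range :=
  (Subgroup.closure_le _).2 (by rintro _ ⟨l, rfl⟩; exact ⟨_, piHom_gen l⟩)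

theorem iS_pow_ne {u v : ℕ} (hu : u < 4) (hv : v < 4) (h : iS ^ u = iS ^ v) : u = v := by
  have := congrArg (fun f : fourRu ↦ (f • B1).val) h
  simp only [iS_pow_smul] at this
  unfold rot at this
  omega

theorem four_le_ker [Finite fourRu] : 4 ≤ Nat.card piHom.ker := by
  refine le_trans (Nat.card_fin 4).symm.le (Nat.card_le_card_of_injective
    (fun v : Fin 4 ↦ (⟨iS ^ v.val, piHom_iS v.val⟩ : piHom.ker)) fun u v h ↦ ?_)
  exact Fin.ext (iS_pow_ne u.isLt v.isLt (congrArg Subtype.val h))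

instance : Finite fourRu := by
  refine Finite.of_injective (fun f : fourRu ↦ (f • B1, f • B2, f • B3, f • B4, f • B5)) fun f g h ↦ ?_
  simp only [Prod.mk.injEq] at h
  obtain ⟨h1, h2, h3, h4, h5⟩ := h
  have : g⁻¹ * f = 1 := eq_one_of_fix (by rw [mul_smul, h1, inv_smul_smul]) (by rw [mul_smul, h2, inv_smul_smul])
    (by rw [mul_smul, h3, inv_smul_smul]) (by rw [mul_smul, h4, inv_smul_smul])
    (by rw [mul_smul, h5, inv_smul_smul])
  exact (inv_mul_eq_one.1 this).symm

theorem card_split : Nat.card fourRu = Nat.card piHom.ker * Nat.card piHom.range := by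
  rw [← Subgroup.index_ker, Subgroup.card_mul_index]

theorem card_K_le_range : 145926144000 ≤ Nat.card piHom.range :=
  SporOut.Ru.K_lower.trans (Subgroup.card_le_of_le K_le_range)

/-- **The order of the automorphism group.** -/
theorem card_fourRu : Nat.card fourRu = 583704576000 ∧ Nat.card piHom.ker = 4 ∧
    Nat.card piHom.range = 145926144000 ∧ Nat.card S1 = 35942400 ∧ Nat.card S2 = 15600 ∧ Nat.card S3 = 52 := by
  have a := card_fourRu_le
  have b := card_S1_le
  have c := card_S2_le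
  have d := card_S3_le
  have e := card_S4_le
  have k := four_le_ker
  have r := card_K_le_range
  have s := card_split
  have hlow : 4 * 145926144000 ≤ Nat.card fourRu := s ▸ Nat.mul_le_mul k r
  have h2 : Nat.card S1 = 35942400 := by omega
  have htot : Nat.card fourRu = 583704576000 := by omega
  refine ⟨htot, ?_, ?_, h2, by omega, by omega⟩
  · rw [htot] at s
    nlinarith
  · rw [htot] at s
    nlinarith

theorem range_eq_K : piHom.range = SporOut.Ru.K :=
  (Subgroup.eq_of_le_of_card_ge K_le_range (card_fourRu.2.2.1 ▸ SporOut.Ru.K_lower)).symm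

theorem ker_eq_scalars {f : fourRu} (hf : f ∈ piHom.ker) : ∃ v : ℕ, v < 4 ∧ f = iS ^ v := by
  have hinj : Function.Injective (fun v : Fin 4 ↦ (⟨iS ^ v.val, piHom_iS v.val⟩ : piHom.ker)) :=
    fun u v h ↦ Fin.ext (iS_pow_ne u.isLt v.isLt (congrArg Subtype.val h))
  have hb := (Nat.bijective_iff_injective_and_card _).2 ⟨hinj, (Nat.card_fin 4).trans card_fourRu.2.1.symm⟩
  obtain ⟨v, hv⟩ := hb.2 ⟨f, hf⟩
  exact ⟨v.val, v.isLt, (congrArg Subtype.val hv).symm⟩

end Cfsg.Agent.RuModel
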